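import Cfsg.Agent.H264.QS.Signed
import Cfsg.Agent.H604.Cop.Conway
import Cfsg.Agent.H777.Ore.Base
import Cfsg.Agent.SigZeroCo2.Lin

/-!
# E8c: the sieve in `Co0` at `p = 23` (helper264, for S2491, S2492)

* `nu x = tr8 x / 8` : the trace on the 24-dimensional space;
* `Deg1 d` : the nontrivial irreducible characters of `Co1` of degree prime to 23 have degree at least `d`;
* `Deg2 d` : the faithful irreducible characters of `Co0` of degree prime to 23 are `nu` or have degree at least `d`;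
* `isC_of_sieve` : the criterion; `isC_of_bd` : for `d₁ = 1782`, `d₂ = 2048` with a table of bounds for `|C_Co1(mk x)|`:
  `t = 0 : 11007`, `-1 : 10099`, `-2 : 9245`, `-3 : 8420`, `-4 : 7633`, `-5 : 6897`, `-6 : 6183`, `-7 : 5522`, `-8 : 4887`,
  `-9 : 4294`, `-10 : 3737`, `-11 : 3222`, `-12 : 2752`, `-13 : 2308`, `-14 : 1908`, `-15 : 1544`, `-16 : 1218`,
  where `8 t ≤ tr8 x`.
-/

set_option autoImplicit false

namespace Cfsg.Agent.H264.QS.CoSieve

open Cfsg Cfsg.Agent.Characters Subgroup Cfsg.Agent.H65.Ore Cfsg.Agent.H113.QS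
open Cfsg.Agent.H777.Ore (IsC)
open Cfsg.Agent.Co2Type.Mono (tr8)
open Cfsg.Agent.H604.Cop.Conway (r23 s23 pi23 isPerm_r23 fix_iff orderOf_r23 orderOf_s23 card_cent_s23 card_eq not_comm_of_card)
open Cfsg.Agent.CoOneType.ClosingFacts (mk)
open Cfsg.Agent.SporadicStructure.Co0Base (e8 e8_coe)
open Cfsg.Agent.SporadicA.GolayBase (idx pt)
open Cfsg.Spor (Co1)
open scoped ComplexConjugate

/-- the trace on the 24-dimensional space -/
noncomputable def nu (x : Co0) : ℂ := (tr8 x : ℂ) / 8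

/-- the degrees of `Co1` -/
def Deg1 (d : ℕ) : Prop :=
  ∀ ψ : IrrCharacter Co1, (ψ : Co1 → ℂ) ≠ 1 → ¬ 23 ∣ charDegree (ψ : Co1 → ℂ) → d ≤ charDegree (ψ : Co1 → ℂ)

/-- the faithful degrees of `Co0` -/
def Deg2 (d : ℕ) : Prop :=
  ∀ χ : IrrCharacter Co0, (∃ z ∈ center Co0, (χ : Co0 → ℂ) z ≠ (χ : Co0 → ℂ) 1) → ¬ 23 ∣ charDegree (χ : Co0 → ℂ) →
    (χ : Co0 → ℂ) = nu ∨ d ≤ charDegree (χ : Co0 → ℂ)

theorem nu_one : nu 1 = (24 : ℕ) := by
  rw [nu, SigZeroCo2.Lin.tr8_one]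
  norm_num

theorem tr8_r23 : tr8 r23 = 8 := by
  have h1 : ∀ i : GolayPt, ((r23 • e8 i : leechLattice) : GolayPt → ℤ) i = if i = pt 23 then 8 else 0 := by
    intro i
    rw [isPerm_r23 (e8 i) i, e8_coe, Pi.single_apply]
    have h2 : pi23.symm i = i ↔ i = pt 23 := by
      rw [Equiv.symm_apply_eq]
      constructor
      · intro h
        have h3 := (fix_iff i).1 h.symm
        have h4 : idx (pt 23) = 23 := SporadicA.GolayBase.idx_pt (by norm_num)
        exact SporadicA.GolayBase.idx_injective (h3.trans h4.symm)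
      · rintro rfl
        exact H604.Cop.Conway.pi23_fix.symm
    by_cases h : i = pt 23
    · rw [if_pos h, if_pos (h2.2 h)]
    · rw [if_neg h, if_neg fun h' => h (h2.1 h')]
  unfold tr8
  rw [Finset.sum_congr rfl fun i _ => h1 i, Finset.sum_ite_eq' Finset.univ (pt 23) fun _ => (8 : ℤ),
    if_pos (Finset.mem_univ _)]

theorem nu_r23 : nu r23 = 1 := by
  rw [nu, tr8_r23]
  norm_num

theorem chk : chkSC 4157776806543360000 23 11 2 83 = true := by decide +kernel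

theorem finite_co1 : Finite Co1 := by
  have := CpAutBig.CoZero.finite_co0
  exact Quotient.finite _

/-- **The moments.** -/
theorem sz : SZ Co0 (QuotientGroup.mk' (center Co0)).ker 23 83 := by
  have := CpAutBig.CoZero.finite_co0
  have := finite_co1
  have hs : IsSimpleGroup Co1 := Cfsg.Agent.S0399.result.1
  have hcard : Nat.card Co1 = 4157776806543360000 := Cfsg.Agent.S0399.result.2
  refine (SZ.lift (K := Co1) (π := QuotientGroup.mk' (center Co0)) (x₀ := s23) (not_comm_of_card (by rw [hcard]; norm_num))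
    (QuotientGroup.mk'_surjective _) (by rw [QuotientGroup.ker_mk']) (by norm_num) hcard orderOf_s23
    ((card_eq orderOf_s23 card_cent_s23).trans orderOf_s23) ?_ 11 2 83 chk).1
  rw [QuotientGroup.ker_mk', show Nat.card (center Co0) = 2 from Cfsg.Agent.S0398.result]
  norm_num

/-- **The sieve.** -/
theorem isC_of_sieve {d₁ d₂ : ℕ} (H1 : Deg1 d₁) (H2 : Deg2 d₂) {x : Co0} {c : ℕ}
    (hc : Nat.card (centralizer ({mk x} : Set Co1)) ≤ c) {t : ℤ} (ht0 : t ≤ 0) (htx : 8 * t ≤ tr8 x) (A B : ℕ)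
    (hA : 82 * (c - 1) ≤ A ^ 2) (hB : 83 * c ≤ B ^ 2)
    (hnum : 24 * ((A * d₂ + B * d₁ : ℕ) : ℤ) < (24 + t) * ((d₁ * d₂ : ℕ) : ℤ)) : IsC x := by
  have := CpAutBig.CoZero.finite_co0
  have := finite_co1
  have hpos : 0 < d₁ ∧ 0 < d₂ := by
    have h1 : (0 : ℤ) ≤ 24 * ((A * d₂ + B * d₁ : ℕ) : ℤ) := by positivity
    rcases Nat.eq_zero_or_pos d₁ with h2 | h2
    · rw [h2, zero_mul, Nat.cast_zero, mul_zero, mul_zero, add_zero] at hnum
      have : (0 : ℤ) ≤ ((A * d₂ : ℕ) : ℤ) := by positivity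
      omega
    · rcases Nat.eq_zero_or_pos d₂ with h3 | h3
      · rw [h3, mul_zero, mul_zero, Nat.cast_zero, mul_zero, zero_add] at hnum
        have : (0 : ℤ) ≤ ((B * d₁ : ℕ) : ℤ) := by positivity
        omega
      · exact ⟨h2, h3⟩
  have hc1 : 1 ≤ c := le_trans (Nat.card_pos (α := centralizer ({mk x} : Set Co1))) hc
  refine (prd_signed (K := Co1) (π := QuotientGroup.mk' (center Co0)) (x := r23) (g := x) (ν := nu) (m := 24)
    (r := (tr8 x : ℝ) / 8) (t := (t : ℝ)) (d₁ := d₁) (d₂ := d₂) (c := c) (A := (A : ℝ)) (B := (B : ℝ)) sz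
    (QuotientGroup.mk'_surjective _) (by rw [QuotientGroup.ker_mk'])
    (by rw [QuotientGroup.ker_mk']; exact Cfsg.Agent.S0398.result) orderOf_r23 (by norm_num) nu_one nu_r23
    (by rw [nu]; push_cast; rfl) (by exact_mod_cast ht0) ?_ hpos.1 hpos.2 H1 ?_ hc (by positivity) ?_ (by positivity) ?_ ?_).comm
  · have h1 : ((8 * t : ℤ) : ℝ) ≤ (tr8 x : ℝ) := by exact_mod_cast htx
    push_cast at h1
    linarith
  · intro χ h1 h2
    rw [QuotientGroup.ker_mk'] at h1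
    exact H2 χ h1 h2
  · have h1 : ((82 * (c - 1) : ℕ) : ℝ) ≤ ((A ^ 2 : ℕ) : ℝ) := by exact_mod_cast hA
    rw [Nat.cast_mul, Nat.cast_sub hc1] at h1
    push_cast at h1
    norm_num
    linarith
  · have h1 : ((83 * c : ℕ) : ℝ) ≤ ((B ^ 2 : ℕ) : ℝ) := by exact_mod_cast hB
    push_cast at h1
    exact_mod_cast h1
  · have h1 : (0 : ℝ) < d₁ := by exact_mod_cast hpos.1
    have h2 : (0 : ℝ) < d₂ := by exact_mod_cast hpos.2
    have h3 : ((24 * ((A * d₂ + B * d₁ : ℕ) : ℤ) : ℤ) : ℝ) < (((24 + t) * ((d₁ * d₂ : ℕ) : ℤ) : ℤ) : ℝ) := by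
      exact_mod_cast hnum
    push_cast at h3
    rw [div_add_div _ _ h1.ne' h2.ne', div_lt_iff₀ (mul_pos h1 h2)]
    push_cast
    linarith

/-- the table of `(t, c, A, B)` for the bounds `1782`, `2048` -/
theorem isC_of_bd (H1 : Deg1 1782) (H2 : Deg2 2048) {x : Co0} {c : ℕ}
    (hc : Nat.card (centralizer ({mk x} : Set Co1)) ≤ c) {t : ℤ} (htx : 8 * t ≤ tr8 x)
    (h : (t = 0 ∧ c = 11007) ∨ (t = -1 ∧ c = 10099) ∨ (t = -2 ∧ c = 9245) ∨ (t = -3 ∧ c = 8420) ∨ (t = -4 ∧ c = 7633) ∨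
      (t = -5 ∧ c = 6897) ∨ (t = -6 ∧ c = 6183) ∨ (t = -7 ∧ c = 5522) ∨ (t = -8 ∧ c = 4887) ∨ (t = -9 ∧ c = 4294) ∨
      (t = -10 ∧ c = 3737) ∨ (t = -11 ∧ c = 3222) ∨ (t = -12 ∧ c = 2752) ∨ (t = -13 ∧ c = 2308) ∨
      (t = -14 ∧ c = 1908) ∨ (t = -15 ∧ c = 1544) ∨ (t = -16 ∧ c = 1218)) : IsC x := by
  rcases h with ⟨rfl, rfl⟩ | ⟨rfl, rfl⟩ | ⟨rfl, rfl⟩ | ⟨rfl, rfl⟩ | ⟨rfl, rfl⟩ | ⟨rfl, rfl⟩ | ⟨rfl, rfl⟩ | ⟨rfl, rfl⟩ |
    ⟨rfl, rfl⟩ | ⟨rfl, rfl⟩ | ⟨rfl, rfl⟩ | ⟨rfl, rfl⟩ | ⟨rfl, rfl⟩ | ⟨rfl, rfl⟩ | ⟨rfl, rfl⟩ | ⟨rfl, rfl⟩ | ⟨rfl, rfl⟩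
  · exact isC_of_sieve H1 H2 hc (by norm_num) htx 950 956 (by norm_num) (by norm_num) (by norm_num)
  · exact isC_of_sieve H1 H2 hc (by norm_num) htx 910 916 (by norm_num) (by norm_num) (by norm_num)
  · exact isC_of_sieve H1 H2 hc (by norm_num) htx 871 876 (by norm_num) (by norm_num) (by norm_num)
  · exact isC_of_sieve H1 H2 hc (by norm_num) htx 831 836 (by norm_num) (by norm_num) (by norm_num)
  · exact isC_of_sieve H1 H2 hc (by norm_num) htx 792 796 (by norm_num) (by norm_num) (by norm_num)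
  · exact isC_of_sieve H1 H2 hc (by norm_num) htx 752 757 (by norm_num) (by norm_num) (by norm_num)
  · exact isC_of_sieve H1 H2 hc (by norm_num) htx 712 717 (by norm_num) (by norm_num) (by norm_num)
  · exact isC_of_sieve H1 H2 hc (by norm_num) htx 673 677 (by norm_num) (by norm_num) (by norm_num)
  · exact isC_of_sieve H1 H2 hc (by norm_num) htx 633 637 (by norm_num) (by norm_num) (by norm_num)
  · exact isC_of_sieve H1 H2 hc (by norm_num) htx 594 597 (by norm_num) (by norm_num) (by norm_num)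
  · exact isC_of_sieve H1 H2 hc (by norm_num) htx 554 557 (by norm_num) (by norm_num) (by norm_num)
  · exact isC_of_sieve H1 H2 hc (by norm_num) htx 514 518 (by norm_num) (by norm_num) (by norm_num)
  · exact isC_of_sieve H1 H2 hc (by norm_num) htx 475 478 (by norm_num) (by norm_num) (by norm_num)
  · exact isC_of_sieve H1 H2 hc (by norm_num) htx 435 438 (by norm_num) (by norm_num) (by norm_num)
  · exact isC_of_sieve H1 H2 hc (by norm_num) htx 396 398 (by norm_num) (by norm_num) (by norm_num)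
  · exact isC_of_sieve H1 H2 hc (by norm_num) htx 356 358 (by norm_num) (by norm_num) (by norm_num)
  · exact isC_of_sieve H1 H2 hc (by norm_num) htx 316 318 (by norm_num) (by norm_num) (by norm_num)

end Cfsg.Agent.H264.QS.CoSieve
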