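import Cfsg.Agent.H113.QS.LiftZ

/-!
# The sieve in a double cover with one character split off (helper264, for S2491, S2492)

* `prd_signed` : `|ker π| = 2`, `ν` is a function with `ν(1) = m`, `ν(x) = 1`, `ν(g) = r`, and every irreducible character of `L`
  which is nontrivial on the kernel and of degree prime to `p` is `ν` or of degree at least `d₂`: then
  `A / d₁ + B / d₂ < 1 + t / m` (`t ≤ 0`, `t ≤ r`, `(S - 1) (c - 1) ≤ A²`, `S c ≤ B²`, `|C_K(π g)| ≤ c`) gives `Prd x x⁻¹ g`.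
-/

set_option autoImplicit false
set_option linter.unusedSectionVars false

namespace Cfsg.Agent.H264.QS

open Cfsg Cfsg.Agent.Characters Subgroup Cfsg.Agent.H65.Ore Cfsg.Agent.H113.QS
open scoped ComplexConjugate

universe u v

variable {L : Type u} [Group L] [Finite L] {K : Type v} [Group K] [Finite K] {π : L →* K}

theorem irr_inv (χ : IrrCharacter L) (x : L) : (χ : L → ℂ) x⁻¹ = conj ((χ : L → ℂ) x) :=
  Core.isCharacter_apply_inv (Core.isIrr_isCharacter χ.2) x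

/-- **The signed sieve.** -/
theorem prd_signed {p S : ℕ} (h : SZ L π.ker p S) (hs : Function.Surjective π) (hc : π.ker ≤ center L)
    (hk : Nat.card π.ker = 2) {x g : L} (hx : orderOf x = p) {ν : L → ℂ} {m : ℕ} (hm : 0 < m) (hν1 : ν 1 = m)
    (hνx : ν x = 1) {r t : ℝ} (hνg : ν g = (r : ℂ)) (ht0 : t ≤ 0) (htr : t ≤ r) {d₁ d₂ : ℕ} (hd₁ : 0 < d₁) (hd₂ : 0 < d₂)
    (H1 : ∀ ψ : IrrCharacter K, (ψ : K → ℂ) ≠ 1 → ¬ p ∣ charDegree (ψ : K → ℂ) → d₁ ≤ charDegree (ψ : K → ℂ))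
    (H2 : ∀ χ : IrrCharacter L, (∃ z ∈ π.ker, (χ : L → ℂ) z ≠ (χ : L → ℂ) 1) → ¬ p ∣ charDegree (χ : L → ℂ) →
      (χ : L → ℂ) = ν ∨ d₂ ≤ charDegree (χ : L → ℂ))
    {c : ℕ} (hcard : Nat.card (centralizer ({π g} : Set K)) ≤ c) {A B : ℝ} (hA0 : 0 ≤ A)
    (hA : ((S : ℝ) - 1) * ((c : ℝ) - 1) ≤ A ^ 2) (hB0 : 0 ≤ B) (hB : (S : ℝ) * c ≤ B ^ 2)
    (hsum : A / d₁ + B / d₂ < 1 + t / m) : Prd x x⁻¹ g := by
  classical
  have : Finite (IrrCharacter L) := Core.finite_irr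
  have := Fintype.ofFinite (IrrCharacter L)
  have : Finite (IrrCharacter π.ker) := Core.finite_irr
  have := Fintype.ofFinite (IrrCharacter π.ker)
  have hmR : (0 : ℝ) < m := by exact_mod_cast hm
  have hd₁R : (0 : ℝ) < d₁ := by exact_mod_cast hd₁
  have hd₂R : (0 : ℝ) < d₂ := by exact_mod_cast hd₂
  have hx' : orderOf x⁻¹ = p := by rw [orderOf_inv, hx]
  -- the central characters
  have h2 : Fintype.card (IrrCharacter π.ker) = 2 := by
    rw [← Nat.card_eq_fintype_card, card_irr_ker hc, hk]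
  obtain ⟨θ, hθ⟩ := Finset.card_eq_one.1 (show (Finset.univ.erase (one1 π.ker)).card = 1 by
    rw [Finset.card_erase_of_mem (Finset.mem_univ _), Finset.card_univ, h2])
  have hθ1 : θ ≠ one1 π.ker := by
    have : θ ∈ Finset.univ.erase (one1 π.ker) := by rw [hθ]; exact Finset.mem_singleton_self _
    exact Finset.ne_of_mem_erase this
  apply prd_of_ne_zero
  set f : IrrCharacter L → ℂ := fun χ => (χ : L → ℂ) x * (χ : L → ℂ) x⁻¹ * conj ((χ : L → ℂ) g) / (χ : L → ℂ) 1 with hf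
  intro h0
  have hnf : ∀ χ : IrrCharacter L, ‖f χ‖ = ‖(χ : L → ℂ) x‖ * ‖(χ : L → ℂ) x⁻¹‖ * ‖(χ : L → ℂ) g‖ / ‖(χ : L → ℂ) 1‖ := by
    intro χ
    rw [hf]
    simp only [norm_div, norm_mul, Complex.norm_conj]
  have ht1 : one1 L ∈ ov π.ker (one1 π.ker : π.ker → ℂ) := mem_ov.2 one_lies
  have hsplit : f (one1 L) + ∑ χ ∈ (ov π.ker (one1 π.ker : π.ker → ℂ)).erase (one1 L), f χ +
      ∑ χ ∈ ov π.ker (θ : π.ker → ℂ), f χ = 0 := by
    rw [← h0, sum_split hc f, ← Finset.add_sum_erase Finset.univ _ (Finset.mem_univ (one1 π.ker)), hθ,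
      Finset.sum_singleton, Finset.add_sum_erase _ _ ht1]
  have hf1 : f (one1 L) = 1 := by
    rw [hf]
    simp [one1_apply]
  have hcR : (Nat.card (centralizer ({π g} : Set K)) : ℝ) ≤ c := by exact_mod_cast hcard
  -- the trivial central character
  have e4 : ∀ z : L, orderOf z = p →
      ∑ χ ∈ (ov π.ker (one1 π.ker : π.ker → ℂ)).erase (one1 L), ‖(χ : L → ℂ) z‖ ^ 4 ≤ (S : ℝ) - 1 := by
    intro z hz
    have h1 := h.four z hz (one1 π.ker)
    rw [← Finset.add_sum_erase _ _ ht1] at h1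
    simp only [one1_apply, norm_one, one_pow] at h1
    linarith
  have e2 : ∑ χ ∈ (ov π.ker (one1 π.ker : π.ker → ℂ)).erase (one1 L), ‖(χ : L → ℂ) g‖ ^ 2 ≤ (c : ℝ) - 1 := by
    have h1 := sum_lies_sq_le hs hc (one1 π.ker) g
    rw [← Finset.add_sum_erase _ _ ht1] at h1
    simp only [one1_apply, norm_one, one_pow] at h1
    linarith
  have b1 : ‖∑ χ ∈ (ov π.ker (one1 π.ker : π.ker → ℂ)).erase (one1 L), f χ‖ ≤ A / d₁ := by
    refine (norm_sum_le _ _).trans ?_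
    simp only [hnf]
    refine (block_le hd₁R (fun χ hχ h1 _ => ?_) (e4 x hx) (e4 x⁻¹ hx') e2).trans ?_
    · rw [cast_deg, Complex.norm_natCast]
      exact_mod_cast deg_base_le hs H1 χ (mem_ov.1 (Finset.mem_of_mem_erase hχ))
        (coe_ne_one (Finset.ne_of_mem_erase hχ)) (h.ndvd x hx χ h1)
    · gcongr
      exact Real.sqrt_le_iff.2 ⟨hA0, hA⟩
  -- the other one
  have hnl : ∀ χ ∈ ov π.ker (θ : π.ker → ℂ), ∃ z ∈ π.ker, (χ : L → ℂ) z ≠ (χ : L → ℂ) 1 :=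
    fun χ hχ => exists_ne_of_lies hθ1 (mem_ov.1 hχ)
  have b2 : ∀ s : Finset (IrrCharacter L), s ⊆ ov π.ker (θ : π.ker → ℂ) → (∀ χ ∈ s, (χ : L → ℂ) ≠ ν) →
      ‖∑ χ ∈ s, f χ‖ ≤ B / d₂ := by
    intro s hs' hν
    refine (norm_sum_le _ _).trans ?_
    simp only [hnf]
    have m4 : ∀ z : L, orderOf z = p → ∑ χ ∈ s, ‖(χ : L → ℂ) z‖ ^ 4 ≤ (S : ℝ) := fun z hz =>
      (Finset.sum_le_sum_of_subset_of_nonneg hs' fun _ _ _ => by positivity).trans (h.four z hz θ)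
    have m2 : ∑ χ ∈ s, ‖(χ : L → ℂ) g‖ ^ 2 ≤ (c : ℝ) :=
      (Finset.sum_le_sum_of_subset_of_nonneg hs' fun _ _ _ => by positivity).trans
        ((sum_lies_sq_le hs hc θ g).trans hcR)
    refine (block_le hd₂R (fun χ hχ h1 _ => ?_) (m4 x hx) (m4 x⁻¹ hx') m2).trans ?_
    · rw [cast_deg, Complex.norm_natCast]
      have h3 := H2 χ (hnl χ (hs' hχ)) (h.ndvd x hx χ h1)
      exact_mod_cast h3.resolve_left (hν χ hχ)
    · gcongr
      exact Real.sqrt_le_iff.2 ⟨hB0, hB⟩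
  -- the two cases
  have main : ∀ (w : ℝ) (R₁ R₂ : ℂ), t ≤ w → ‖R₁‖ ≤ A / d₁ → ‖R₂‖ ≤ B / d₂ →
      1 + R₁ + (((w / m : ℝ) : ℂ) + R₂) = 0 → False := by
    intro w R₁ R₂ hw h1 h2 h3
    have h4 := congrArg Complex.re h3
    simp only [Complex.add_re, Complex.one_re, Complex.ofReal_re, Complex.zero_re] at h4
    have h5 := (abs_le.1 ((Complex.abs_re_le_norm R₁).trans h1)).1
    have h6 := (abs_le.1 ((Complex.abs_re_le_norm R₂).trans h2)).1
    have h7 : t / m ≤ w / m := by gcongr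
    linarith
  rw [hf1] at hsplit
  by_cases hex : ∃ χ ∈ ov π.ker (θ : π.ker → ℂ), (χ : L → ℂ) = ν
  · obtain ⟨χ, hχ, hχν⟩ := hex
    rw [← Finset.add_sum_erase _ _ hχ] at hsplit
    refine main r _ _ htr b1 (b2 _ (Finset.erase_subset χ _) fun ψ hψ h1 =>
      Finset.ne_of_mem_erase hψ (Subtype.ext (h1.trans hχν.symm))) ?_
    · have h3 : f χ = ((r / m : ℝ) : ℂ) := by
        rw [hf]
        simp only
        rw [irr_inv, hχν, hνx, hνg, hν1, map_one, one_mul, one_mul, Complex.conj_ofReal]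
        push_cast
        rfl
      rw [← h3]
      exact hsplit
  · push Not at hex
    refine main 0 _ _ ht0 b1 (b2 _ (Finset.Subset.refl _) hex) ?_
    rw [zero_div, Complex.ofReal_zero, zero_add]
    exact hsplit

end Cfsg.Agent.H264.QS
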